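-- Project DG33 (S3670), package [ISO] (helper84): the antidiagonal model is isomorphic to
-- `PSU 3 F 3`.
import Mathlib
import Cfsg.Agent.Lib.Helper14.DG33.Defs

set_option autoImplicit false

namespace Cfsg.Agent.Lib.Helper84.DG33

open Cfsg.Agent.Lib.Helper14.DG33 Cfsg.Agent.Lib.Helper86.Un Cfsg.Agent.Lib.Helper45

universe u

theorem pkgIso : PkgIso.{u} := by
  intro F _ _ hF
  obtain ⟨P, hP⟩ := exists_base (herm_sigmaQ hF) 3
  have hc : Nat.card (Subgroup.center (Cfsg.SU 3 F 3)) = 1 := by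
    rw [card_center_SU hF 3 (by norm_num)]
    rfl
  have hbot : Subgroup.center (Cfsg.SU 3 F 3) = ⊥ := Subgroup.card_eq_one.mp hc
  have hnorm : (⊥ : Subgroup (Cfsg.SU 3 F 3)).Normal := inferInstance
  exact ⟨(MulEquiv.ofBijective (toSU hF P hP)
    ⟨toSU_injective hF P hP, toSU_surjective hF P hP⟩).trans
    ((QuotientGroup.quotientBot (G := Cfsg.SU 3 F 3)).symm.trans
      (QuotientGroup.quotientMulEquivOfEq hbot.symm))⟩

end Cfsg.Agent.Lib.Helper84.DG33
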